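import Cfsg.Agent.H999.IF.EngB
import Cfsg.Agent.H209.IF.Kill

/-!
# S5719, characteristic 2: counting lemmas (helper129)

* `cl t A` : the conjugates of `t` in `A`; `count` : `f(t)^5 |t^T ∩ A| < |t^T|`;
* `rel_le` : `|B| ≤ f(t) |A ∩ B|` for `B ≤ C(t)`;
* `index_cent_le` : `|t^T| ≤ (|Y| - 1) |T : N(Y)|` for `t ∈ Y`;
* `step1` : a special subgroup `Q` with `t ∈ Q ∩ A`, `Z ≰ A`.
-/

set_option autoImplicit false
set_option linter.unusedSectionVars false

namespace Cfsg.Agent.H129.IFE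

open MulAction Subgroup Cfsg.Agent.H209.Fxy Cfsg.Agent.H999.IFB

variable {T : Type*} [Group T] [Finite T] {A : Subgroup T} {Γ : Subgroup (MulAut T)}

/-- the conjugates of `t` in `A` -/
def cl (t : T) (A : Subgroup T) : Set T := {x | x ∈ A ∧ IsConj t x}

theorem conj_inj [IsSimpleGroup T] (hna : ∃ a b : T, a * b ≠ b * a) :
    Function.Injective (MulAut.conj : T →* MulAut T) := by
  rw [injective_iff_map_eq_one]
  intro z hz
  apply center_of hna
  intro x
  have h3 := congrArg (fun τ : MulAut T => τ x) hz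
  simp only [MulAut.conj_apply, MulAut.one_apply] at h3
  rwa [mul_inv_eq_iff_eq_mul] at h3

theorem conj_mem_icl {t x : T} (h : IsConj t x) : MulAut.conj x ∈ icl (MulAut.conj t) := by
  obtain ⟨c, hc⟩ := isConj_iff.1 h
  exact ⟨c, by rw [← hc, map_mul, map_mul, map_inv]⟩

theorem cl_ncard_le [IsSimpleGroup T] (hna : ∃ a b : T, a * b ≠ b * a) (h : IF A Γ) (t : T) :
    (cl t A).ncard ≤ (icl (MulAut.conj t) ∩ (Γ : Set (MulAut T))).ncard := by
  refine Set.ncard_le_ncard_of_injOn (fun x : T => MulAut.conj x) ?_ ((conj_inj hna).injOn) (Set.toFinite _)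
  rintro x ⟨hx, hc⟩
  exact ⟨conj_mem_icl hc, (h.conj x).2 hx⟩

/-- **Counting.** -/
theorem count [IsSimpleGroup T] (hna : ∃ a b : T, a * b ≠ b * a) (h : IF A Γ) {t : T} (ht : t ∈ A)
    (h2 : orderOf t = 2) : fx A (MulAut.conj t) ^ 5 * (cl t A).ncard < (centralizer ({t} : Set T)).index := by
  have hσ : MulAut.conj t ∈ Γ := (h.conj t).2 ht
  obtain ⟨ho, hc, -, -, -⟩ := IF.E2' h hna ht h2
  have h1 := IF.fix_formula' h hσ
  rw [hc] at h1
  have h3 := h.small _ hσ ho
  have h4 := fx_pos A (MulAut.conj t)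
  have h5 := cl_ncard_le hna h t
  set f := fx A (MulAut.conj t)
  set N := (icl (MulAut.conj t) ∩ (Γ : Set (MulAut T))).ncard
  have h6 : 0 < N := by
    have : (icl (MulAut.conj t) ∩ (Γ : Set (MulAut T))).Nonempty :=
      ⟨MulAut.conj t, conj_mem_icl (IsConj.refl t), hσ⟩
    exact (Set.ncard_pos (Set.toFinite _)).2 this
  have h7 : f * (f ^ 5 * N) < f * (centralizer ({t} : Set T)).index := by
    rw [h1]
    calc f * (f ^ 5 * N) = f ^ 6 * N := by ring
      _ < A.index * N := Nat.mul_lt_mul_of_pos_right h3 h6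
  have h8 : f ^ 5 * N < (centralizer ({t} : Set T)).index := lt_of_mul_lt_mul_left h7 (Nat.zero_le _)
  exact lt_of_le_of_lt (Nat.mul_le_mul_left _ h5) h8

/-- conjugate elements have the same number of fixed points -/
theorem fx_congr (h : IF A Γ) {t t' : T} (ht : t ∈ A) (ht' : t' ∈ A) (hc : IsConj t t') :
    fx A (MulAut.conj t) = fx A (MulAut.conj t') := by
  have hσ : MulAut.conj t ∈ Γ := (h.conj t).2 ht
  have hσ' : MulAut.conj t' ∈ Γ := (h.conj t').2 ht'
  have h1 := IF.fix_formula' h hσ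
  have h2 := IF.fix_formula' h hσ'
  have h3 : icl (MulAut.conj t) = icl (MulAut.conj t') := by
    obtain ⟨c, rfl⟩ := isConj_iff.1 hc
    ext τ
    constructor
    · rintro ⟨x, rfl⟩
      refine ⟨x * c⁻¹, ?_⟩
      simp only [map_mul, map_inv]
      group
    · rintro ⟨x, rfl⟩
      refine ⟨x * c, ?_⟩
      simp only [map_mul, map_inv]
      group
  have h4 : 0 < (icl (MulAut.conj t')).ncard :=
    (Set.ncard_pos (Set.toFinite _)).2 ⟨MulAut.conj t', conj_mem_icl (IsConj.refl t')⟩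
  rw [h3, ← h2] at h1
  exact Nat.eq_of_mul_eq_mul_right h4 h1

theorem rel_le (h : IF A Γ) {t : T} (ht : t ∈ A) (ho : orderOf (MulAut.conj t) = 2) {B : Subgroup T}
    (hB : B ≤ centralizer ({t} : Set T)) : Nat.card B ≤ fx A (MulAut.conj t) * Nat.card (A ⊓ B : Subgroup T) := by
  have hσ : MulAut.conj t ∈ Γ := (h.conj t).2 ht
  obtain ⟨h1, -⟩ := IF.E1 h hσ ho (B := B) (fun b hb => by
    have := Subgroup.mem_centralizer_singleton_iff.1 (hB hb)
    rw [MulAut.conj_apply, mul_inv_eq_iff_eq_mul]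
    exact this.symm)
  have h2 : Nat.card (A.subgroupOf B) * A.relIndex B = Nat.card B := Subgroup.card_mul_index _
  have h3 : Nat.card (A.subgroupOf B) = Nat.card (A ⊓ B : Subgroup T) := by
    rw [← Subgroup.inf_subgroupOf_right]
    exact Nat.card_congr (Subgroup.subgroupOfEquivOfLe inf_le_right).toEquiv
  rw [← h2, h3, mul_comm]
  exact Nat.mul_le_mul_right _ h1

/-- the class of `t ∈ Y` is covered by the conjugates of `Y` -/
theorem index_cent_le {Y : Subgroup T} {t : T} (ht : t ∈ Y) (ht1 : t ≠ 1) :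
    (centralizer ({t} : Set T)).index ≤ (Nat.card Y - 1) * (normalizer (Y : Set T)).index := by
  have h1 : (centralizer ({t} : Set T)).index ≤ (centralizer ({t} : Set T) ⊓ normalizer (Y : Set T)).index :=
    Nat.le_of_dvd (Nat.pos_of_ne_zero FiniteIndex.index_ne_zero) (Subgroup.index_dvd_of_le inf_le_left)
  refine h1.trans ?_
  have h2 : (centralizer ({t} : Set T)).relIndex (normalizer (Y : Set T)) * (normalizer (Y : Set T)).index =
      (centralizer ({t} : Set T) ⊓ normalizer (Y : Set T)).index := by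
    rw [← Subgroup.inf_relIndex_right]
    exact Subgroup.relIndex_mul_index inf_le_right
  rw [← h2]
  refine Nat.mul_le_mul_right _ ?_
  rw [Subgroup.relIndex, Subgroup.index]
  have h3 : Nat.card Y - 1 = ((Y : Set T) \ {1}).ncard := by
    rw [Set.ncard_sdiff_singleton_of_mem (one_mem Y)]
    rfl
  rw [h3]
  let φ : (normalizer (Y : Set T) ⧸ (centralizer ({t} : Set T)).subgroupOf (normalizer (Y : Set T))) →
      ↥((Y : Set T) \ {1}) :=
    fun c => ⟨Quotient.liftOn' c (fun n : normalizer (Y : Set T) => (n : T) * t * (n : T)⁻¹) (by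
      intro a b hab
      rw [QuotientGroup.leftRel_apply, Subgroup.mem_subgroupOf, Subgroup.mem_centralizer_singleton_iff] at hab
      have h5 : (((a⁻¹ * b : normalizer (Y : Set T)) : T)) = (a : T)⁻¹ * b := rfl
      rw [h5] at hab
      show (a : T) * t * (a : T)⁻¹ = (b : T) * t * (b : T)⁻¹
      rw [mul_inv_eq_iff_eq_mul]
      calc (a : T) * t = (a : T) * (t * ((a : T)⁻¹ * b)) * ((a : T)⁻¹ * b)⁻¹ := by group
        _ = (a : T) * (((a : T)⁻¹ * b) * t) * ((a : T)⁻¹ * b)⁻¹ := by rw [hab]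
        _ = _ := by group), by
      induction c using QuotientGroup.induction_on with
      | H n =>
        constructor
        · exact (Subgroup.mem_normalizer_iff.1 n.2 t).1 ht
        · intro h6
          have h7 : (n : T) * t * (n : T)⁻¹ = 1 := h6
          exact ht1 (by rwa [conj_eq_one_iff] at h7)⟩
  have hφ : Function.Injective φ := by
    intro c c' hcc
    induction c using QuotientGroup.induction_on with
    | H a =>
      induction c' using QuotientGroup.induction_on with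
      | H b =>
        have h8 : (a : T) * t * (a : T)⁻¹ = (b : T) * t * (b : T)⁻¹ := congrArg Subtype.val hcc
        rw [QuotientGroup.eq, Subgroup.mem_subgroupOf, Subgroup.mem_centralizer_singleton_iff]
        show (a : T)⁻¹ * b * t = t * ((a : T)⁻¹ * b)
        calc (a : T)⁻¹ * b * t = (a : T)⁻¹ * ((b : T) * t * (b : T)⁻¹) * b := by group
          _ = (a : T)⁻¹ * ((a : T) * t * (a : T)⁻¹) * b := by rw [h8]
          _ = _ := by group
  have h9 := Nat.card_le_card_of_injective φ hφ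
  rw [Nat.card_coe_set_eq] at h9
  exact h9

/-- the conjugates of a configuration -/
theorem conj_IF (h : IF A Γ) (g : T) : ∃ Γ', IF (A.map (MulAut.conj g).toMonoidHom) Γ' :=
  ⟨_, h.map (MulAut.conj g)⟩

theorem card_centralizer_le {Z Q : Subgroup T} {t : T} (h : ∀ y ∈ Q, t * y * t⁻¹ * y⁻¹ ∈ Z) :
    Nat.card Q ≤ Nat.card Z * Nat.card (Q ⊓ centralizer ({t} : Set T) : Subgroup T) := by
  have h1 : Nat.card ((centralizer ({t} : Set T)).subgroupOf Q) *
      ((centralizer ({t} : Set T)).subgroupOf Q).index = Nat.card Q := Subgroup.card_mul_index _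
  have h3 : Nat.card ((centralizer ({t} : Set T)).subgroupOf Q) =
      Nat.card (Q ⊓ centralizer ({t} : Set T) : Subgroup T) := by
    rw [inf_comm, ← Subgroup.inf_subgroupOf_right]
    exact Nat.card_congr (Subgroup.subgroupOfEquivOfLe inf_le_right).toEquiv
  rw [← h1, h3, mul_comm]
  refine Nat.mul_le_mul_right _ ?_
  rw [Subgroup.index]
  let φ : (Q ⧸ (centralizer ({t} : Set T)).subgroupOf Q) → Z :=
    fun c => ⟨Quotient.liftOn' c (fun y : Q => t * (y : T) * t⁻¹ * (y : T)⁻¹) (by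
      intro a b hab
      rw [QuotientGroup.leftRel_apply, Subgroup.mem_subgroupOf, Subgroup.mem_centralizer_singleton_iff] at hab
      have h5 : (((a⁻¹ * b : Q) : T)) = (a : T)⁻¹ * b := rfl
      rw [h5] at hab
      show t * (a : T) * t⁻¹ * (a : T)⁻¹ = t * (b : T) * t⁻¹ * (b : T)⁻¹
      have h6 : t * ((a : T)⁻¹ * b) * t⁻¹ = (a : T)⁻¹ * b := by rw [← hab, mul_inv_cancel_right]
      calc t * (a : T) * t⁻¹ * (a : T)⁻¹ = t * (a : T) * t⁻¹ * ((a : T)⁻¹ * b) * (b : T)⁻¹ := by group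
        _ = t * (a : T) * t⁻¹ * (t * ((a : T)⁻¹ * b) * t⁻¹) * (b : T)⁻¹ := by rw [h6]
        _ = _ := by group), by
      induction c using QuotientGroup.induction_on with
      | H n => exact h n n.2⟩
  have hφ : Function.Injective φ := by
    intro c c' hcc
    induction c using QuotientGroup.induction_on with
    | H a =>
      induction c' using QuotientGroup.induction_on with
      | H b =>
        have h8 : t * (a : T) * t⁻¹ * (a : T)⁻¹ = t * (b : T) * t⁻¹ * (b : T)⁻¹ := congrArg Subtype.val hcc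
        rw [QuotientGroup.eq, Subgroup.mem_subgroupOf, Subgroup.mem_centralizer_singleton_iff]
        show (a : T)⁻¹ * b * t = t * ((a : T)⁻¹ * b)
        have h9 : t * ((a : T)⁻¹ * b) * t⁻¹ = (a : T)⁻¹ * b := by
          calc t * ((a : T)⁻¹ * b) * t⁻¹ = (t * (a : T) * t⁻¹)⁻¹ * (t * (b : T) * t⁻¹ * (b : T)⁻¹) * b := by group
            _ = (t * (a : T) * t⁻¹)⁻¹ * (t * (a : T) * t⁻¹ * (a : T)⁻¹) * b := by rw [← h8]
            _ = _ := by group
        rw [mul_inv_eq_iff_eq_mul] at h9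
        exact h9.symm
  exact Nat.card_le_card_of_injective φ hφ

/-- `|A ∩ W| |Z| ≤ |W| |A ∩ Z|` for `Z ≤ W` -/
theorem inf_mul_le (A : Subgroup T) {Z W : Subgroup T} (hZW : Z ≤ W) :
    Nat.card (A ⊓ W : Subgroup T) * Nat.card Z ≤ Nat.card W * Nat.card (A ⊓ Z : Subgroup T) := by
  have h1 : Nat.card (A ⊓ Z : Subgroup T) * (A ⊓ Z).relIndex (A ⊓ W) = Nat.card (A ⊓ W : Subgroup T) := by
    have := Subgroup.card_mul_index ((A ⊓ Z).subgroupOf (A ⊓ W))
    rwa [Nat.card_congr (Subgroup.subgroupOfEquivOfLe (inf_le_inf_left A hZW)).toEquiv] at this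
  have h2 : Nat.card Z * Z.relIndex W = Nat.card W := by
    have := Subgroup.card_mul_index (Z.subgroupOf W)
    rwa [Nat.card_congr (Subgroup.subgroupOfEquivOfLe hZW).toEquiv] at this
  have h3 : (A ⊓ Z).relIndex (A ⊓ W) ≤ Z.relIndex W := by
    have h4 : (A ⊓ Z).relIndex (A ⊓ W) = Z.relIndex (A ⊓ W) := by
      have h5 : A ⊓ Z ⊓ (A ⊓ W) = Z ⊓ (A ⊓ W) := by
        ext x
        simp only [Subgroup.mem_inf]
        tauto
      rw [← Subgroup.inf_relIndex_right (A ⊓ Z), h5, Subgroup.inf_relIndex_right]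
    rw [h4]
    exact Subgroup.relIndex_le_of_le_right inf_le_right (by
      rw [Subgroup.relIndex]
      exact FiniteIndex.index_ne_zero)
  rw [← h1, ← h2]
  nlinarith [Nat.mul_le_mul_left (Nat.card (A ⊓ Z : Subgroup T) * Nat.card Z) h3]

/-- **Step 1.** -/
theorem step1 [IsSimpleGroup T] (hna : ∃ a b : T, a * b ≠ b * a) (h : IF A Γ) {Z W Q : Subgroup T} {q m : ℕ}
    (hq : Nat.card Z = q) (hZW : Z ≤ W) (hcQ : Nat.card Q = q ^ (2 * m) * Nat.card W) (hm : 1 ≤ m)
    (hcomm : ∀ x ∈ Q, ∀ y ∈ Q, x * y * x⁻¹ * y⁻¹ ∈ Z)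
    (hiso : ∀ R : Subgroup T, R ≤ Q → ¬ Z ≤ R →
      Nat.card R ^ 2 * Nat.card W ≤ Nat.card Q * Nat.card (R ⊓ W : Subgroup T) ^ 2)
    (hWQ : W ≤ Q) {t : T} (htA : t ∈ A) (htQ : t ∈ Q) (h2 : orderOf t = 2) (htZ : t ∉ Z)
    (hconj : ∀ z ∈ Z, z ≠ 1 → IsConj t z) (hZA : ¬ Z ≤ A) :
    (2 * q ^ (m - 1)) ^ 4 * q ^ m < (centralizer ({t} : Set T)).index := by
  obtain ⟨ho, -, -, -, -⟩ := IF.E2' h hna htA h2
  have hqpos : 0 < q := by rw [← hq]; exact Nat.card_pos
  have hWpos : 0 < Nat.card W := Nat.card_pos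
  set f := fx A (MulAut.conj t) with hf
  obtain ⟨a, ha⟩ : ∃ a, a = Nat.card (A ⊓ Z : Subgroup T) := ⟨_, rfl⟩
  have hapos : 0 < a := by rw [ha]; exact Nat.card_pos
  -- `2 a ≤ q`
  have h2a : 2 * a ≤ q := by
    have h3 : a ∣ q := by
      rw [ha, ← hq]
      exact Subgroup.card_dvd_of_le inf_le_right
    obtain ⟨c, hc⟩ := h3
    have hc1 : c ≠ 1 := by
      rintro rfl
      apply hZA
      rw [mul_one] at hc
      have h4 : A ⊓ Z = Z := Subgroup.eq_of_le_of_card_ge inf_le_right (by rw [← ha, hq, hc])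
      rw [← h4]
      exact inf_le_left
    have hc0 : c ≠ 0 := by
      rintro rfl
      omega
    have : 2 ≤ c := by omega
    calc 2 * a ≤ c * a := Nat.mul_le_mul_right _ this
      _ = q := by rw [hc, mul_comm]
  -- `|Q| ≤ q f |A ∩ Q|`
  have h5 : Nat.card Q ≤ q * (f * Nat.card (A ⊓ Q : Subgroup T)) := by
    have h6 := card_centralizer_le (Z := Z) (Q := Q) (t := t) (fun y hy => hcomm t htQ y hy)
    rw [hq] at h6
    refine h6.trans (Nat.mul_le_mul_left _ ?_)
    refine (rel_le h htA ho (B := Q ⊓ centralizer ({t} : Set T)) inf_le_right).trans (Nat.mul_le_mul_left _ ?_)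
    exact Subgroup.card_le_of_le (inf_le_inf_left A inf_le_left)
  -- `|A ∩ Q| ≤ q ^ m |A ∩ W|`
  have h7 : Nat.card (A ⊓ Q : Subgroup T) ≤ q ^ m * Nat.card (A ⊓ W : Subgroup T) := by
    have h8 := hiso (A ⊓ Q) inf_le_right (fun hc => hZA (hc.trans inf_le_left))
    have h9 : A ⊓ Q ⊓ W = A ⊓ W := by rw [inf_assoc, inf_eq_right.2 hWQ]
    rw [h9, hcQ] at h8
    have h10 : Nat.card (A ⊓ Q : Subgroup T) ^ 2 ≤ (q ^ m * Nat.card (A ⊓ W : Subgroup T)) ^ 2 := by
      have h11 : Nat.card (A ⊓ Q : Subgroup T) ^ 2 * Nat.card W ≤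
          (q ^ m * Nat.card (A ⊓ W : Subgroup T)) ^ 2 * Nat.card W := by
        calc _ ≤ _ := h8
          _ = _ := by ring
      exact Nat.le_of_mul_le_mul_right h11 hWpos
    exact (Nat.pow_le_pow_iff_left two_ne_zero).1 h10
  have h12 := inf_mul_le A hZW
  rw [hq, ← ha] at h12
  -- `q ^ m ≤ f a`
  have h13 : q ^ m ≤ f * a := by
    have h14 : q ^ (2 * m) * Nat.card W ≤ f * q ^ m * (Nat.card W * a) := by
      calc q ^ (2 * m) * Nat.card W = Nat.card Q := hcQ.symm
        _ ≤ q * (f * Nat.card (A ⊓ Q : Subgroup T)) := h5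
        _ ≤ q * (f * (q ^ m * Nat.card (A ⊓ W : Subgroup T))) := by gcongr
        _ = f * q ^ m * (Nat.card (A ⊓ W : Subgroup T) * q) := by ring
        _ ≤ f * q ^ m * (Nat.card W * a) := by gcongr
    have h15 : q ^ m * (q ^ m * Nat.card W) ≤ f * a * (q ^ m * Nat.card W) := by
      calc q ^ m * (q ^ m * Nat.card W) = q ^ (2 * m) * Nat.card W := by ring
        _ ≤ f * q ^ m * (Nat.card W * a) := h14
        _ = _ := by ring
    exact Nat.le_of_mul_le_mul_right h15 (Nat.mul_pos (pow_pos hqpos _) hWpos)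
  -- `a ≤ |t^T ∩ A|`
  have h16 : a ≤ (cl t A).ncard := by
    have h17 : insert t ((((A ⊓ Z : Subgroup T) : Set T)) \ {1}) ⊆ cl t A := by
      rintro x (rfl | ⟨hx, hx1⟩)
      · exact ⟨htA, IsConj.refl _⟩
      · exact ⟨hx.1, hconj x hx.2 hx1⟩
    have h18 := Set.ncard_le_ncard h17 (Set.toFinite _)
    rw [Set.ncard_insert_of_notMem (fun hc => htZ hc.1.2) (Set.toFinite _),
      Set.ncard_sdiff_singleton_of_mem (one_mem _)] at h18
    have h19 : (((A ⊓ Z : Subgroup T) : Set T)).ncard = a := ha.symm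
    rw [h19] at h18
    omega
  have h20 := count hna h htA h2
  rw [← hf] at h20
  -- `2 q ^ (m - 1) ≤ f`
  have h21 : 2 * q ^ (m - 1) ≤ f := by
    have h22 : 2 * q ^ (m - 1) * q ≤ f * q := by
      calc 2 * q ^ (m - 1) * q = 2 * q ^ m := by
            obtain ⟨k, rfl⟩ := Nat.exists_eq_add_of_le hm
            rw [Nat.add_sub_cancel_left, add_comm 1 k, pow_succ]
            ring
        _ ≤ 2 * (f * a) := Nat.mul_le_mul_left _ h13
        _ = f * (2 * a) := by ring
        _ ≤ f * q := Nat.mul_le_mul_left _ h2a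
    exact Nat.le_of_mul_le_mul_right h22 hqpos
  calc (2 * q ^ (m - 1)) ^ 4 * q ^ m ≤ f ^ 4 * (f * a) := by gcongr
    _ = f ^ 5 * a := by ring
    _ ≤ f ^ 5 * (cl t A).ncard := by gcongr
    _ < _ := h20

end Cfsg.Agent.H129.IFE
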